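import Cfsg.Agent.Characters.Linear
import Cfsg.Agent.S0157

/-!
# Characters of degree `-1` modulo the order, small off the identity (helper61, S4612)

* `val_neg_one` : `χ(1) + 1 = k |A|`, `|χ| ≤ 1` off the identity, `χ` invariant under a fixed point free automorphism:
  `χ = -1` off the identity.
-/

set_option autoImplicit false
set_option linter.unusedSectionVars false

open Cfsg

namespace Cfsg.Agent.H61.PQ

open Cfsg.Agent.Characters.Core Cfsg.Agent.Characters.Linear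
open scoped ComplexConjugate

universe u

variable {A : Type u} [Group A] [Finite A]

/-- the regular character -/
theorem isCharacter_reg (k : ℕ) : ∃ ρ : A → ℂ, IsCharacter A ρ ∧ ρ 1 = k * Nat.card A ∧ ∀ u : A, u ≠ 1 → ρ u = 0 := by
  classical
  have h1 := Cfsg.Agent.S0157.isCharacter_fixedBy (G := A) A
  refine ⟨k • (fun g : A => (Nat.card (MulAction.fixedBy A g) : ℂ)), isCharacter_nsmul k h1, ?_, fun u hu => ?_⟩
  · rw [Pi.smul_apply, MulAction.fixedBy_one_eq_univ, Nat.card_univ, nsmul_eq_mul]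
  · have h2 : IsEmpty (MulAction.fixedBy A u) := by
      refine ⟨fun x => hu ?_⟩
      have h3 : u * x.1 = x.1 := x.2
      exact mul_eq_right.1 h3
    rw [Pi.smul_apply, Nat.card_of_isEmpty, Nat.cast_zero, smul_zero]

/-- `k ρ - χ` is a linear character -/
theorem exists_lin_of_le {f : A → ℂ} (hf : IsCharacter A f) {k : ℕ} (h1 : f 1 + 1 = k * Nat.card A)
    (hle : ∀ u : A, u ≠ 1 → ‖f u‖ ≤ 1) : ∃ l : A →* ℂˣ, ∀ u : A, u ≠ 1 → f u = -(l u : ℂ) := by
  classical
  have := Fintype.ofFinite A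
  obtain ⟨ρ, hρ, hρ1, hρu⟩ := isCharacter_reg (A := A) k
  have hgen : IsGeneralizedCharacter A (ρ - f) := ⟨ρ, f, hρ, hf, rfl⟩
  have hθ1 : (ρ - f) 1 = 1 := by
    rw [Pi.sub_apply, hρ1, ← h1]
    ring
  have hθu : ∀ u : A, u ≠ 1 → (ρ - f) u = - f u := fun u hu => by rw [Pi.sub_apply, hρu u hu, zero_sub]
  have hθle : ∀ u : A, ‖(ρ - f) u‖ ≤ 1 := by
    intro u
    by_cases hu : u = 1
    · rw [hu, hθ1, norm_one]
    · rw [hθu u hu, norm_neg]
      exact hle u hu
  -- the norm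
  have hN : classInner (ρ - f) (ρ - f) = 1 := by
    have := finite_irr (G := A)
    have := Fintype.ofFinite (IrrCharacter A)
    obtain ⟨m, hm⟩ := isGeneralizedCharacter_iff.mp hgen
    have h2 := classInner_sum_smul_sum_smul (fun ψ : IrrCharacter A => (m ψ : ℂ)) (fun ψ => (m ψ : ℂ))
    simp only [Int.cast_smul_eq_zsmul] at h2
    rw [← hm] at h2
    simp only [map_intCast, ← pow_two] at h2
    have h3 : classInner (ρ - f) (ρ - f) = ((∑ ψ : IrrCharacter A, (m ψ) ^ 2 : ℤ) : ℂ) := by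
      rw [h2]
      push_cast
      rfl
    -- upper bound
    have h4 : classInner (ρ - f) (ρ - f) = (((Nat.card A : ℝ)⁻¹ * ∑ u : A, ‖(ρ - f) u‖ ^ 2 : ℝ) : ℂ) := by
      rw [classInner_def]
      push_cast
      congr 1
      refine Finset.sum_congr rfl fun u _ => ?_
      rw [Complex.mul_conj, Complex.normSq_eq_norm_sq]
      push_cast
      rfl
    have hc : (0 : ℝ) < Nat.card A := by exact_mod_cast Nat.card_pos
    have h5 : (Nat.card A : ℝ)⁻¹ * ∑ u : A, ‖(ρ - f) u‖ ^ 2 ≤ 1 := by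
      have h6 : ∑ u : A, ‖(ρ - f) u‖ ^ 2 ≤ ∑ u : A, (1 : ℝ) :=
        Finset.sum_le_sum fun u _ => by
          have h7 := hθle u
          have h8 := norm_nonneg ((ρ - f) u)
          nlinarith
      rw [Finset.sum_const, Finset.card_univ, nsmul_eq_mul, mul_one, ← Nat.card_eq_fintype_card] at h6
      rw [inv_mul_le_iff₀ hc, mul_one]
      exact h6
    have h6 : 0 < (Nat.card A : ℝ)⁻¹ * ∑ u : A, ‖(ρ - f) u‖ ^ 2 := by
      refine mul_pos (inv_pos.2 hc) (Finset.sum_pos' (fun u _ => by positivity) ⟨1, Finset.mem_univ _, ?_⟩)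
      rw [hθ1, norm_one]
      norm_num
    have h7 : ((∑ ψ : IrrCharacter A, (m ψ) ^ 2 : ℤ) : ℝ) = (Nat.card A : ℝ)⁻¹ * ∑ u : A, ‖(ρ - f) u‖ ^ 2 := by
      have h8 := h3.symm.trans h4
      exact_mod_cast h8
    rw [← h7] at h5 h6
    have h8 : (∑ ψ : IrrCharacter A, (m ψ) ^ 2 : ℤ) ≤ 1 := by exact_mod_cast h5
    have h9 : 0 < (∑ ψ : IrrCharacter A, (m ψ) ^ 2 : ℤ) := by exact_mod_cast h6
    have h10 : (∑ ψ : IrrCharacter A, (m ψ) ^ 2 : ℤ) = 1 := by omega
    rw [h3, h10, Int.cast_one]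
  have hirr : IsIrrCharacter A (ρ - f) := by
    rcases isIrr_of_generalized hgen hN with h | h
    · exact h
    · exfalso
      obtain ⟨n, hn0, hn⟩ := isIrr_apply_one h
      rw [Pi.neg_apply, hθ1] at hn
      have h2 : ((n : ℤ) : ℂ) = ((-1 : ℤ) : ℂ) := by push_cast; exact hn.symm
      have h3 : (n : ℤ) = -1 := by exact_mod_cast h2
      omega
  obtain ⟨l, hl⟩ := exists_hom_of_isIrrCharacter hirr hθ1
  refine ⟨l, fun u hu => ?_⟩
  have h2 := congrFun hl u
  rw [hθu u hu] at h2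
  rw [← h2, neg_neg]

/-- **`χ = -1` off the identity** -/
theorem val_neg_one {f : A → ℂ} (hf : IsCharacter A f) {k : ℕ} (h1 : f 1 + 1 = k * Nat.card A)
    (hle : ∀ u : A, u ≠ 1 → ‖f u‖ ≤ 1) (σ : A ≃* A) (hinv : ∀ u, f (σ u) = f u) (hfp : ∀ u, σ u = u → u = 1) {u : A}
    (hu : u ≠ 1) : f u = -1 := by
  obtain ⟨l, hl⟩ := exists_lin_of_le hf h1 hle
  have h2 : ∀ v : A, l (σ v) = l v := by
    intro v
    by_cases hv : v = 1
    · rw [hv, map_one]
    · have h3 : σ v ≠ 1 := fun h => hv (σ.injective (h.trans (map_one σ).symm))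
      have h4 := hl v hv
      have h5 := hl (σ v) h3
      rw [hinv, h4] at h5
      exact Units.ext (neg_injective h5).symm
  have hinj : Function.Injective (fun v : A => v⁻¹ * σ v) := by
    intro v w hvw
    have h3 : v⁻¹ * σ v = w⁻¹ * σ w := hvw
    have h4 : σ (v * w⁻¹) = v * w⁻¹ := by
      have h5 : σ v = v * (v⁻¹ * σ v) := by group
      have h6 : σ w = w * (w⁻¹ * σ w) := by group
      rw [map_mul, map_inv, h5, h6, ← h3]
      group
    exact mul_inv_eq_one.1 (hfp _ h4)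
  obtain ⟨v, hv⟩ := (Finite.injective_iff_surjective.1 hinj) u
  have h3 : l u = 1 := by
    have h4 : v⁻¹ * σ v = u := hv
    rw [← h4, map_mul, map_inv, h2, inv_mul_cancel]
  rw [hl u hu, h3, Units.val_one]

end Cfsg.Agent.H61.PQ
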